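import Mathlib

set_option autoImplicit false

namespace CL.XSM

open Module
open scoped commutatorElement

/-- Simultaneous eigenvectors with distinct characters are linearly independent. -/
theorem li_of_eigen {G : Type*} [Group G] [Finite G] {K X : Type*} [Field K] [AddCommGroup X]
    [Module K X] (hG : (Nat.card G : K) ≠ 0) (σ : G →* Module.End K X) {ι : Type*} (v : ι → X)
    (hv : ∀ i, v i ≠ 0) (χ : ι → G → K) (h : ∀ i g, σ g (v i) = χ i g • v i)
    (hinj : Function.Injective χ) : LinearIndependent K v := by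
  classical
  have := Fintype.ofFinite G
  have hmul : ∀ i a b, χ i (a * b) = χ i a * χ i b := by
    intro i a b
    apply smul_left_injective K (hv i)
    show χ i (a * b) • v i = (χ i a * χ i b) • v i
    rw [← h, map_mul, Module.End.mul_apply, h, map_smul, h, smul_smul, mul_comm]
  have hone : ∀ i, χ i 1 = 1 := by
    intro i
    apply smul_left_injective K (hv i)
    show χ i 1 • v i = (1 : K) • v i
    rw [← h, map_one, one_smul]; rfl
  have hinv : ∀ i a, χ i a⁻¹ * χ i a = 1 := by
    intro i a; rw [← hmul, inv_mul_cancel, hone]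
  have hcomm : ∀ i j, ∃ f : G →* K, ∀ g, f g = χ j g⁻¹ * χ i g := by
    intro i j
    refine ⟨⟨⟨fun g => χ j g⁻¹ * χ i g, by simp [hone]⟩, ?_⟩, fun g => rfl⟩
    intro a b
    simp only [mul_inv_rev, hmul]; ring
  have horth : ∀ i j, i ≠ j → ∑ g, χ j g⁻¹ * χ i g = 0 := by
    intro i j hij
    obtain ⟨f, hf⟩ := hcomm i j
    have hf1 : f ≠ 1 := by
      intro h1
      apply hij
      apply hinj
      funext g
      have h2 := hf g
      rw [h1, MonoidHom.one_apply] at h2
      have h3 := hinv j g
      have h4 : χ j g⁻¹ ≠ 0 := by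
        intro h0; rw [h0, zero_mul] at h3; exact zero_ne_one h3
      exact mul_left_cancel₀ h4 (h2.symm.trans h3.symm)
    rw [← sum_hom_units_eq_zero f hf1]
    exact Finset.sum_congr rfl fun g _ => (hf g).symm
  rw [linearIndependent_iff']
  intro s c hs j hj
  have h1 : ∑ g, χ j g⁻¹ • σ g (∑ i ∈ s, c i • v i) = 0 := by simp [hs]
  have h2 : ∑ g, χ j g⁻¹ • σ g (∑ i ∈ s, c i • v i)
      = ∑ i ∈ s, (c i * ∑ g, χ j g⁻¹ * χ i g) • v i := by
    simp only [map_sum, map_smul, h, Finset.smul_sum, smul_smul]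
    rw [Finset.sum_comm]
    refine Finset.sum_congr rfl fun i _ => ?_
    rw [Finset.mul_sum, Finset.sum_smul]
    refine Finset.sum_congr rfl fun g _ => ?_
    congr 1; ring
  rw [h2, Finset.sum_eq_single j] at h1
  · simp only [hinv, Finset.sum_const, Finset.card_univ, nsmul_eq_mul, mul_one] at h1
    rcases smul_eq_zero.1 h1 with h3 | h3
    · rcases mul_eq_zero.1 h3 with h4 | h4
      · exact h4
      · rw [Nat.card_eq_fintype_card] at hG; exact absurd h4 hG
    · exact absurd h3 (hv j)
  · intro i _ hij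
    rw [horth i j hij, mul_zero, zero_smul]
  · intro h; exact absurd hj h

/-- If commutators act as scalars, faithfully, then `|E : Z(E)| ≤ (dim U)^2`. -/
theorem index_center_le {E : Type*} [Group E] [Finite E] {K U : Type*} [Field K] [AddCommGroup U]
    [Module K U] [FiniteDimensional K U] [Nontrivial U] (hE : (Nat.card E : K) ≠ 0)
    (ρ : E →* Module.End K U) (hc : ∀ a b : E, ∃ c : K, ρ ⁅a, b⁆ = c • 1)
    (hf : ∀ a b : E, ρ ⁅a, b⁆ = 1 → ⁅a, b⁆ = 1) :
    (Subgroup.center E).index ≤ finrank K U ^ 2 := by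
  classical
  choose χ hχ using hc
  let σ : E →* Module.End K (Module.End K U) :=
    { toFun := fun h => (LinearMap.mulLeft K (ρ h)).comp (LinearMap.mulRight K (ρ h⁻¹))
      map_one' := by ext f x; simp
      map_mul' := by intro a b; ext f x; simp }
  have hli : LinearIndependent K (fun q : E ⧸ Subgroup.center E => ρ q.out) := by
    refine li_of_eigen hE σ _ ?_ (fun q h => χ h q.out) ?_ ?_
    · intro q h0
      have : ρ (q.out * q.out⁻¹) = 0 := by rw [map_mul, h0, zero_mul]
      rw [mul_inv_cancel, map_one] at this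
      exact one_ne_zero this
    · intro q h
      show ρ h * (ρ q.out * ρ h⁻¹) = _
      rw [← map_mul, ← map_mul]
      have : h * (q.out * h⁻¹) = ⁅h, q.out⁆ * q.out := by
        rw [commutatorElement_def]; group
      rw [this, map_mul, hχ, smul_mul_assoc, one_mul]
    · intro q q' hq
      have h1 : ∀ h : E, ρ ⁅h, q.out⁆ = ρ ⁅h, q'.out⁆ := by
        intro h
        rw [hχ, hχ]
        have := congrFun hq h
        simp only at this
        rw [this]
      have h2 : q'.out⁻¹ * q.out ∈ Subgroup.center E := by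
        rw [Subgroup.mem_center_iff]
        intro h
        have h3 : ⁅h, q'.out⁻¹ * q.out⁆ = 1 := by
          apply hf
          have e1 : ⁅h, q'.out⁻¹ * q.out⁆
              = (h * q'.out⁻¹ * h⁻¹) * ⁅h, q.out⁆ * q'.out := by
            simp only [commutatorElement_def]; group
          have e2 : (h * q'.out⁻¹ * h⁻¹) * ⁅h, q'.out⁆ * q'.out = 1 := by
            simp only [commutatorElement_def]; group
          rw [e1, map_mul, map_mul, h1, ← map_mul, ← map_mul, e2, map_one]
        exact (commutatorElement_eq_one_iff_mul_comm.1 h3)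
      rw [← QuotientGroup.out_eq' q, ← QuotientGroup.out_eq' q']
      exact (QuotientGroup.eq.2 h2).symm
  have : Finite (E ⧸ Subgroup.center E) := inferInstance
  have := Fintype.ofFinite (E ⧸ Subgroup.center E)
  have := hli.fintype_card_le_finrank
  rw [Module.finrank_linearMap, ← Nat.card_eq_fintype_card] at this
  rw [Subgroup.index, sq]
  exact this

theorem sum_finrank_le {K X : Type*} [Field K] [AddCommGroup X] [Module K X]
    [FiniteDimensional K X] {ι : Type*} [Fintype ι] (U : ι → Submodule K X) (h : iSupIndep U) :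
    ∑ i, finrank K (U i) ≤ finrank K X := by
  classical
  have := LinearMap.finrank_le_finrank_of_injective h.dfinsupp_lsum_injective
  rw [← Module.finrank_directSum]
  exact this

theorem exists_eig {K W : Type*} [Field K] [IsAlgClosed K] [AddCommGroup W] [Module K W]
    [FiniteDimensional K W] {p : ℕ} (hpK : (p : K) ≠ 0) (T : Module.End K W) (hTp : T ^ p = 1)
    (hT1 : T ≠ 1) : ∃ ζ : K, ζ ≠ 1 ∧ ζ ^ p = 1 ∧ T.HasEigenvalue ζ := by
  set N : Module.End K W := ∑ i ∈ Finset.range p, T ^ i with hN
  have hNT : N * (T - 1) = 0 := by rw [hN, geom_sum_mul, hTp, sub_self]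
  have hcom : T * N = N * T := by
    rw [hN, Finset.mul_sum, Finset.sum_mul]
    exact Finset.sum_congr rfl fun i _ => (pow_succ' T i).symm.trans (pow_succ T i)
  have hmap : ∀ x ∈ LinearMap.ker N, T x ∈ LinearMap.ker N := by
    intro x hx
    rw [LinearMap.mem_ker] at hx ⊢
    rw [← Module.End.mul_apply, ← hcom, Module.End.mul_apply, hx, map_zero]
  have : Nontrivial (LinearMap.ker N) := by
    rw [Submodule.nontrivial_iff_ne_bot]
    intro h0
    apply hT1
    ext1 u
    have : (T - 1) u ∈ LinearMap.ker N := by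
      rw [LinearMap.mem_ker, ← Module.End.mul_apply, hNT]; rfl
    rw [h0, Submodule.mem_bot, LinearMap.sub_apply, sub_eq_zero] at this
    exact this
  obtain ⟨ζ, hζ⟩ := Module.End.exists_eigenvalue (T.restrict hmap)
  obtain ⟨u, hu⟩ := hζ.exists_hasEigenvector
  have hu1 : T u.1 = ζ • u.1 := by
    have := congrArg Subtype.val hu.apply_eq_smul
    simpa using this
  have hu0 : u.1 ≠ 0 := fun h => hu.2 (Subtype.ext h)
  have hev : T.HasEigenvector ζ u.1 := ⟨Module.End.mem_eigenspace_iff.2 hu1, hu0⟩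
  have hNu : N u.1 = (∑ i ∈ Finset.range p, ζ ^ i) • u.1 := by
    show (∑ i ∈ Finset.range p, T ^ i) u.1 = _
    rw [LinearMap.sum_apply, Finset.sum_smul]
    exact Finset.sum_congr rfl fun i _ => hev.pow_apply i
  have hs : ∑ i ∈ Finset.range p, ζ ^ i = 0 := by
    have : N u.1 = 0 := u.2
    rw [hNu] at this
    exact (smul_eq_zero.1 this).resolve_right hu0
  refine ⟨ζ, ?_, ?_, Module.End.hasEigenvalue_of_hasEigenvector hev⟩
  · rintro rfl
    simp at hs
    exact hpK hs
  · have := geom_sum_mul ζ p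
    rw [hs, zero_mul] at this
    exact (sub_eq_zero.1 this.symm)

/-- Module form of the bound. -/
theorem rep_bound {E : Type*} [Group E] [Finite E] {p r : ℕ} [hp : Fact p.Prime] [hr : Fact r.Prime]
    (hpr : p ≠ r) (hcomm : commutator E ≤ Subgroup.center E)
    (hZ : Nat.card (Subgroup.center E) = p) (w : ℕ) (hEcard : Nat.card E = p ^ (2 * w + 1))
    {V : Type*} [AddCommGroup V] [Module (ZMod r) V] [Module.Finite (ZMod r) V]
    (ρ : E →* Module.End (ZMod r) V) (hρ : ∀ g, ρ g = 1 → g = 1)
    (n : ℕ) (hmin : ∀ k : ℕ, 1 ≤ k → p ∣ r ^ k - 1 → n ≤ k)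
    (K : Type*) [Field K] [IsAlgClosed K] [Algebra (ZMod r) K] [CharP K r] :
    n * p ^ w ≤ finrank (ZMod r) V := by
  classical
  have hW : finrank K (V →ₗ[ZMod r] K) = finrank (ZMod r) V := Module.finrank_linearMap_self _ _ _
  have hpK : (p : K) ≠ 0 := by
    intro h
    rw [CharP.cast_eq_zero_iff K r] at h
    exact hpr ((Nat.prime_dvd_prime_iff_eq hr.out hp.out).1 h).symm
  have hEK : (Nat.card E : K) ≠ 0 := by
    rw [hEcard]; push_cast; exact pow_ne_zero _ hpK
  let τ : E →* Module.End K (V →ₗ[ZMod r] K) :=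
    { toFun := fun g =>
        { toFun := fun f => f ∘ₗ ρ g⁻¹
          map_add' := fun f f' => by ext x; simp
          map_smul' := fun c f => by ext x; simp }
      map_one' := by ext f x; simp
      map_mul' := by intro a b; ext f x; simp }
  have hτ : ∀ g (f : V →ₗ[ZMod r] K) x, τ g f x = f (ρ g⁻¹ x) := fun _ _ _ => rfl
  -- generator of the centre
  have : IsCyclic (Subgroup.center E) := isCyclic_of_prime_card hZ
  obtain ⟨z0, hz0⟩ := IsCyclic.exists_generator (α := Subgroup.center E)
  have hoz0 : orderOf z0 = p := by rw [orderOf_eq_card_of_forall_mem_zpowers hz0, hZ]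
  set z : E := z0.1 with hzdef
  have hoz : orderOf z = p := by rw [hzdef, Subgroup.orderOf_coe, hoz0]
  have hzc : ∀ g, g * z = z * g := fun g => Subgroup.mem_center_iff.1 z0.2 g
  have hcz : ∀ c ∈ Subgroup.center E, ∃ k : ℕ, c = z ^ k := by
    intro c hc
    obtain ⟨k, hk⟩ := (mem_powers_iff_mem_zpowers.2 (hz0 ⟨c, hc⟩))
    exact ⟨k, by have := congrArg Subtype.val hk; simpa using this.symm⟩
  set T := τ z with hT
  have hTp : T ^ p = 1 := by rw [hT, ← map_pow, ← hoz, pow_orderOf_eq_one, map_one]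
  have hT1 : T ≠ 1 := by
    intro h1
    have hz1 : z⁻¹ ≠ 1 := by
      intro h; rw [inv_eq_one] at h; rw [h, orderOf_one] at hoz; exact hp.out.one_lt.ne hoz
    apply hz1
    apply hρ
    ext x
    have : ρ z⁻¹ x - x = 0 := by
      rw [← Module.forall_dual_apply_eq_zero_iff (ZMod r)]
      intro φ
      have h2 := congrArg (fun (F : Module.End K (V →ₗ[ZMod r] K)) => F (Algebra.linearMap (ZMod r) K ∘ₗ φ) x) h1
      simp only [hT, hτ, Module.End.one_apply, LinearMap.comp_apply, Algebra.linearMap_apply] at h2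
      rw [map_sub, sub_eq_zero]
      exact (algebraMap (ZMod r) K).injective h2
    simpa [sub_eq_zero] using this
  -- an eigenvalue of order p
  obtain ⟨ζ, hζ1, hζp, hζ⟩ := exists_eig hpK T hTp hT1
  have hoζ : orderOf ζ = p := orderOf_eq_prime hζp hζ1
  -- Frobenius
  let F : K →ₗ[ZMod r] K := (frobenius K r).toAddMonoidHom.toZModLinearMap r
  have hF : ∀ x, F x = x ^ r := fun x => rfl
  have hfrob : ∀ μ : K, T.HasEigenvalue μ → T.HasEigenvalue (μ ^ r) := by
    intro μ hμ
    obtain ⟨u, hu⟩ := hμ.exists_hasEigenvector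
    refine Module.End.hasEigenvalue_of_hasEigenvector (x := F ∘ₗ u) ⟨?_, ?_⟩
    · rw [Module.End.mem_eigenspace_iff]
      ext x
      have := congrArg (fun f : V →ₗ[ZMod r] K => f x) hu.apply_eq_smul
      simp only [hT, hτ] at this
      show F (u (ρ z⁻¹ x)) = μ ^ r • F (u x)
      rw [this, hF, hF]
      show (μ * u x) ^ r = μ ^ r * u x ^ r
      rw [mul_pow]
    · intro h0
      apply hu.2
      ext x
      have := congrArg (fun f : V →ₗ[ZMod r] K => f x) h0
      change F (u x) = 0 at this
      rw [hF] at this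
      exact pow_eq_zero_iff hr.out.ne_zero |>.1 this
  have hev : ∀ i : ℕ, T.HasEigenvalue (ζ ^ r ^ i) := by
    intro i
    induction i with
    | zero => simpa using hζ
    | succ i ih => rw [pow_succ, pow_mul]; exact hfrob _ ih
  have hcop : ∀ i : ℕ, Nat.Coprime p (r ^ i) := fun i =>
    Nat.Coprime.pow_right _ ((Nat.coprime_primes hp.out hr.out).2 hpr)
  have hinj : Function.Injective (fun i : Fin n => ζ ^ r ^ (i : ℕ)) := by
    have key : ∀ i j : ℕ, i < j → j < n → ζ ^ r ^ i ≠ ζ ^ r ^ j := by
      intro i j hij hjn h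
      have hfo : IsOfFinOrder ζ := by rw [← orderOf_pos_iff, hoζ]; exact hp.out.pos
      rw [hfo.pow_eq_pow_iff_modEq, hoζ] at h
      obtain ⟨d, rfl⟩ := Nat.exists_eq_add_of_lt hij
      have h1 : 1 ≡ r ^ (d + 1) [MOD p] := by
        apply Nat.ModEq.cancel_left_of_coprime (c := r ^ i) (hcop i)
        rw [mul_one, ← pow_add, ← add_assoc]; exact h
      have h2 := hmin (d + 1) (by omega) ((Nat.modEq_iff_dvd' (Nat.one_le_pow _ _ hr.out.pos)).1 h1)
      omega
    intro i j h
    rcases lt_trichotomy (i : ℕ) j with h1 | h1 | h1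
    · exact absurd h (key _ _ h1 j.2)
    · exact Fin.ext h1
    · exact absurd h.symm (key _ _ h1 i.2)
  have hidx : (Subgroup.center E).index = (p ^ w) ^ 2 := by
    have := (Subgroup.center E).card_mul_index
    rw [hZ, hEcard, pow_succ', pow_mul'] at this
    exact Nat.eq_of_mul_eq_mul_left hp.out.pos this
  have hdim : ∀ μ : K, orderOf μ = p → T.HasEigenvalue μ → p ^ w ≤ finrank K (T.eigenspace μ) := by
    intro μ hoμ hμ
    have hmap : ∀ g, ∀ x ∈ T.eigenspace μ, τ g x ∈ T.eigenspace μ := by
      intro g x hx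
      rw [Module.End.mem_eigenspace_iff] at hx ⊢
      rw [hT, ← Module.End.mul_apply, ← map_mul, ← hzc, map_mul, Module.End.mul_apply, ← hT, hx,
        map_smul]
    let τ' : E →* Module.End K (T.eigenspace μ) :=
      { toFun := fun g => (τ g).restrict (hmap g)
        map_one' := by ext1 x; apply Subtype.ext; simp
        map_mul' := by intro a b; ext1 x; apply Subtype.ext; simp }
    have : Nontrivial (T.eigenspace μ) := Submodule.nontrivial_iff_ne_bot.2 hμ
    have hz' : τ' z = μ • 1 := by
      ext1 x; apply Subtype.ext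
      exact Module.End.mem_eigenspace_iff.1 x.2
    have hck : ∀ a b : E, ∃ k : ℕ, ⁅a, b⁆ = z ^ k := fun a b =>
      hcz _ (hcomm (Subgroup.commutator_mem_commutator (Subgroup.mem_top a) (Subgroup.mem_top b)))
    have := index_center_le (U := T.eigenspace μ) hEK τ' (fun a b => by
      obtain ⟨k, hk⟩ := hck a b
      exact ⟨μ ^ k, by rw [hk, map_pow, hz', smul_pow, one_pow]⟩) (fun a b h => by
      obtain ⟨k, hk⟩ := hck a b
      rw [hk, map_pow, hz', smul_pow, one_pow] at h
      have h1 : μ ^ k = 1 := by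
        obtain ⟨x, hx⟩ := exists_ne (0 : T.eigenspace μ)
        have h2 := congrArg (fun F : Module.End K (T.eigenspace μ) => F x) h
        have h3 : μ ^ k • x.1 = x.1 := congrArg Subtype.val h2
        by_contra hne
        apply hx
        apply Subtype.ext
        ext v
        have h4 : μ ^ k * x.1 v = x.1 v := congrArg (fun f : V →ₗ[ZMod r] K => f v) h3
        have h5 : (μ ^ k - 1) * x.1 v = 0 := by rw [sub_mul, h4, one_mul, sub_self]
        exact (mul_eq_zero.1 h5).resolve_left (sub_ne_zero.2 hne)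
      rw [hk, ← orderOf_dvd_iff_pow_eq_one, hoz, ← hoμ, orderOf_dvd_iff_pow_eq_one, h1])
    rw [hidx] at this
    exact (Nat.pow_le_pow_iff_left two_ne_zero).1 this
  have hind := (Module.End.eigenspaces_iSupIndep T).comp hinj
  have hs := sum_finrank_le _ hind
  rw [hW] at hs
  refine le_trans ?_ hs
  calc n * p ^ w = ∑ _i : Fin n, p ^ w := by simp
    _ ≤ _ := Finset.sum_le_sum fun i _ => hdim _ ?_ (hev i)
  rw [← hoζ, Nat.Coprime.orderOf_pow (by rw [hoζ]; exact hcop i)]

/-- Additive-group form of the bound. -/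
theorem add_bound {E : Type*} [Group E] [Finite E] {p r : ℕ} [hp : Fact p.Prime] [hr : Fact r.Prime]
    (hpr : p ≠ r) (hcomm : commutator E ≤ Subgroup.center E)
    (hZ : Nat.card (Subgroup.center E) = p) (w : ℕ) (hEcard : Nat.card E = p ^ (2 * w + 1))
    {V : Type*} [AddCommGroup V] [Finite V] (hV : ∀ x : V, r • x = 0)
    (φ : E → V →+ V) (h1 : ∀ x, φ 1 x = x) (hm : ∀ a b x, φ (a * b) x = φ a (φ b x))
    (hφ : ∀ g, (∀ x, φ g x = x) → g = 1)
    (n : ℕ) (hmin : ∀ k : ℕ, 1 ≤ k → p ∣ r ^ k - 1 → n ≤ k) :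
    r ^ (n * p ^ w) ≤ Nat.card V := by
  obtain ⟨inst⟩ : Nonempty (Module (ZMod r) V) := ⟨AddCommGroup.zmodModule hV⟩
  have : Module.Finite (ZMod r) V := Module.Finite.of_finite
  let ρ : E →* Module.End (ZMod r) V :=
    { toFun := fun g => AddMonoidHom.toZModLinearMap r (φ g)
      map_one' := LinearMap.ext h1
      map_mul' := fun g h => LinearMap.ext (hm g h) }
  have hρ : ∀ g, ρ g = 1 → g = 1 := fun g hg => hφ g fun x => LinearMap.congr_fun hg x
  have hb := rep_bound hpr hcomm hZ w hEcard ρ hρ n hmin (AlgebraicClosure (ZMod r))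
  have hc : Nat.card V = Nat.card (ZMod r) ^ Module.finrank (ZMod r) V :=
    Module.natCard_eq_pow_finrank
  rw [Nat.card_zmod] at hc
  rw [hc]
  exact Nat.pow_le_pow_right hr.out.pos hb

end CL.XSM
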